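import Cfsg.Agent.H33.IM
import Cfsg.Agent.H7.NBpComp
import Cfsg.Agent.Blocks.CyclicUpper

/-!
# `NB p G` from the Ito-Michler rows when `p` divides `|G|` exactly once (helper493)
-/

set_option autoImplicit false

namespace Cfsg.Agent.H493.NB

open Cfsg Cfsg.Agent Cfsg.Agent.H7.NBp

/-- an irreducible character of degree divisible by the full `p`-part -/
theorem of_deg {p : ℕ} [hp : Fact p.Prime] {G : Type*} [Group G] [Finite G] (χ : IrrCharacter G) {k : ℕ} (hk : k ≠ 0)
    (h : p ^ k ∣ charDegree (χ : G → ℂ)) (h2 : ¬ p ^ (k + 1) ∣ Nat.card G) : NB p G := by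
  have h1 : charDegree (χ : G → ℂ) ∣ Nat.card G := by
    have : Fintype G := Fintype.ofFinite G
    exact Blocks.CyclicUpper.charDegree_dvd χ.2
  refine NB.of_dz' χ ?_ ?_
  · intro h3
    rw [h3, Nat.dvd_one] at h
    exact hp.out.one_lt.ne' ((Nat.pow_eq_one.1 h).resolve_right hk)
  · intro h3
    apply h2
    obtain ⟨c, hc⟩ := h1
    have h4 : 0 < charDegree (χ : G → ℂ) := by
      rcases Nat.eq_zero_or_pos (charDegree (χ : G → ℂ)) with h5 | h5
      · rw [h5, zero_mul] at hc
        exact absurd hc Nat.card_pos.ne'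
      · exact h5
    rw [hc, Nat.mul_div_cancel_left _ h4] at h3
    rw [hc, pow_succ]
    exact mul_dvd_mul h h3

theorem of_IM {p : ℕ} [hp : Fact p.Prime] {G : Type*} [Group G] [Finite G] (h : H33.IM p G)
    (h2 : ¬ p ^ 2 ∣ Nat.card G) : NB p G := by
  obtain ⟨χ, hχ⟩ := h
  exact of_deg χ one_ne_zero (by rwa [pow_one]) h2

end Cfsg.Agent.H493.NB
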