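import Cfsg.Agent.H493.NB.BabyThree
import Cfsg.Agent.H718.NBIH
import Cfsg.Agent.S1701
import Cfsg.Agent.S1698
import Cfsg.Agent.S1696

/-!
# Nonprincipal `p`-blocks of `B` and `M`, `p` odd (helper493; task 2486 of helper718)
-/

set_option autoImplicit false

namespace Cfsg.Agent.H493.NB

open Cfsg Cfsg.Agent Cfsg.Agent.H7.NBp Cfsg.Agent.H718.NBIH

/-- a simple group of given order not a prime is not commutative -/
theorem not_comm {T : Type*} [Group T] [IsSimpleGroup T] {n : ℕ} (hn : Nat.card T = n) (h4 : 4 ∣ n) :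
    ¬ IsMulCommutative T := by
  intro h
  let _ : CommGroup T := { (inferInstance : Group T) with mul_comm := h.is_comm.comm }
  have h3 : (Nat.card T).Prime := IsSimpleGroup.prime_card
  rw [hn] at h3
  have h5 : (2 : ℕ) ∣ n := (by norm_num : (2 : ℕ) ∣ 4).trans h4
  have h6 := (Nat.prime_dvd_prime_iff_eq Nat.prime_two h3).1 h5
  rw [← h6] at h4
  norm_num at h4

/-- use of the induction hypothesis -/
theorem use {p n m : ℕ} (ih : IH p n) {T : Type} [Group T] (hs : IsSimpleGroup T) (hm : Nat.card T = m)
    (h4 : 4 ∣ m) (h0 : m ≠ 0) (hmn : m < n) : NB p T := by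
  have : Finite T := Nat.finite_of_card_ne_zero (by rw [hm]; exact h0)
  exact ih T (not_comm hm h4) (by rw [hm]; exact hmn)

/-- **`B`** -/
theorem nb_b {p : ℕ} [hp : Fact p.Prime] (h2 : p ≠ 2) (S : Type) [Group S] [Finite S] [IsSimpleGroup S]
    (h : Cfsg.Spor.IsoB S) (ih : IH p (Nat.card S)) : NB p S := by
  obtain ⟨e⟩ := h
  refine NB.iso e.symm ?_
  by_cases h3 : p = 3
  · subst h3
    have hc : Nat.card S = 4154781481226426191177580544000000 := by
      rw [Nat.card_congr e.toEquiv, BM.KHAll.card_B]
    rw [hc] at ih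
    exact baby_three (use ih S1696.result.1 S1696.result.2 (by norm_num) (by norm_num) (by norm_num))
  · refine baby ?_
    have h4 := hp.out.two_le
    have h5 : p ≠ 4 := by
      rintro rfl
      exact absurd hp.out (by norm_num)
    omega

/-- **`M`** -/
theorem nb_m {p : ℕ} [hp : Fact p.Prime] (h2 : p ≠ 2) (S : Type) [Group S] [Finite S] [IsSimpleGroup S]
    (h : Cfsg.Spor.IsoM S) (ih : IH p (Nat.card S)) : NB p S := by
  obtain ⟨e⟩ := h
  refine NB.iso e.symm ?_
  obtain ⟨f⟩ := Cfsg.Agent.MonsterP.Equiv.equiv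
  have hc : Nat.card S = 808017424794512875886459904961710757005754368000000000 := by
    rw [Nat.card_congr e.toEquiv, Nat.card_congr f.toEquiv, MonsterP.EquivOf.isM_model.2]
  rw [hc] at ih
  have h4 := hp.out.two_le
  have h5 : p ≠ 4 := by
    rintro rfl
    exact absurd hp.out (by norm_num)
  have h6 : p ≠ 6 := by
    rintro rfl
    exact absurd hp.out (by norm_num)
  by_cases h3 : p = 3
  · subst h3
    exact monster_three (use ih S1698.result.1 S1698.result.2 (by norm_num) (by norm_num) (by norm_num))
  by_cases h7 : p = 5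
  · subst h7
    exact monster_five (use ih S1701.result.1 S1701.result.2 (by norm_num) (by norm_num) (by norm_num))
  · exact monster (by omega)

end Cfsg.Agent.H493.NB
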